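import Cfsg.Agent.CharTwo.EarlyCores
import Cfsg.Agent.Components.EquivariantSFT

/-!
# The subgroup generated by the cores of involution centralizers

When all involution centralizers are 2-constrained and a Sylow 2-subgroup has a normal elementary
abelian subgroup of order at least eight, the cores `O(C(b))` generate one odd order subgroup,
independent of the rank two subgroup of the Sylow 2-subgroup, given the solvable signalizer functor
theorem for the prime 2.
-/

set_option autoImplicit false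

open Subgroup
open Cfsg.Agent

namespace Cfsg.Agent.Signalizer.ConstrainedCores

open Cfsg.Agent.CharTwo

universe u

/-- The solvable signalizer functor theorem for the prime two. -/
def TwoSFTProp : Prop :=
  ∀ {G : Type u} [Group G] [Finite G] (A : Subgroup G)
    (_hAcomm : ∀ a ∈ A, ∀ b ∈ A, a * b = b * a) (_hAexp : ∀ a ∈ A, a ^ 2 = 1)
    (_hArank : 2 ^ 3 ≤ Nat.card A) (θ : G → Subgroup G)
    (_hθC : ∀ a ∈ A, a ≠ 1 → θ a ≤ Subgroup.centralizer {a})
    (_hθp : ∀ a ∈ A, a ≠ 1 → ¬ 2 ∣ Nat.card (θ a))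
    (_hθinv : ∀ a ∈ A, a ≠ 1 → ∀ b ∈ A, ∀ x ∈ θ a, b * x * b⁻¹ ∈ θ a)
    (_hθsolv : ∀ a ∈ A, a ≠ 1 → Group.IsSolvable (θ a))
    (_hbal : ∀ a ∈ A, a ≠ 1 → ∀ b ∈ A, b ≠ 1 → θ a ⊓ Subgroup.centralizer {b} ≤ θ b),
    ¬ 2 ∣ Nat.card ↥(⨆ a : {a : G // a ∈ A ∧ a ≠ 1}, θ a) ∧ ∀ a ∈ A, a ≠ 1 →
      (⨆ b : {a : G // a ∈ A ∧ a ≠ 1}, θ b) ⊓ Subgroup.centralizer {a} = θ a

variable {G : Type u} [Group G] [Finite G]

/-- `W_F`, the subgroup generated by `θ f`, `f ∈ F#`. -/
abbrev W (F : Subgroup G) : Subgroup G := Components.thetaClosure CharTwo.theta F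

omit [Finite G] in
theorem isPConstrained_centralizer
    (h2c : ∀ T : Subgroup G, IsPGroup 2 T → T ≠ ⊥ →
      Cfsg.IsPConstrained 2 ↥(Subgroup.normalizer (T : Set G)))
    (t : G) (ht : orderOf t = 2) : Cfsg.IsPConstrained 2 (centralizer ({t} : Set G)) := by
  rw [← normalizer_zpowers_eq ht]
  exact h2c _ (isPGroup_zpowers_two ht) (zpowers_ne_bot ht)

theorem W_le_of_mem_normalizer {F : Subgroup G} {g : G} (hg : g ∈ normalizer (F : Set G)) :
    g ∈ normalizer (W F : Set G) := by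
  have h : ∀ c ∈ normalizer (F : Set G), (W F).map (MulAut.conj c).toMonoidHom ≤ W F := by
    intro c hc
    rw [Subgroup.map_iSup]
    refine iSup_le fun b => ?_
    refine le_trans (map_theta_conj c (b : G)).le ?_
    exact le_iSup (fun b : {a : G // a ∈ F ∧ a ≠ 1} => CharTwo.theta (b : G))
      ⟨c * b * c⁻¹, (hc b).1 b.2.1, fun h => b.2.2 (conj_eq_one_iff.1 h)⟩
  refine mem_normalizer_iff_map_conj_eq.2 (le_antisymm (h g hg) ?_)
  intro x hx
  exact ⟨g⁻¹ * x * g, by simpa using h g⁻¹ (inv_mem hg) ⟨x, hx, rfl⟩, by simp [mul_assoc]⟩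

variable (hSFT : TwoSFTProp.{u})
  (hFT : ∀ H : Subgroup G, Odd (Nat.card H) → Group.IsSolvable H)
  (hcon : ∀ t : G, orderOf t = 2 → Cfsg.IsPConstrained 2 (centralizer ({t} : Set G)))

include hSFT hFT hcon

/-- Completeness on an elementary abelian subgroup of order at least eight. -/
theorem complete {F : Subgroup G} (hF : Cfsg.IsElementaryAbelian 2 F) (hF8 : 2 ^ 3 ≤ Nat.card F) :
    ¬ 2 ∣ Nat.card (W F) ∧ ∀ a ∈ F, a ≠ 1 → W F ⊓ centralizer {a} = CharTwo.theta a := by
  have hord : ∀ a ∈ F, a ≠ 1 → orderOf a = 2 := fun a ha ha1 =>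
    Signalizer.elemAb_orderOf hF ha ha1
  refine hSFT F (fun a ha b hb => Signalizer.elemAb_comm hF ha hb) hF.2 hF8 CharTwo.theta
    (fun a _ _ => coreIn_le _) (fun a _ _ => ?_) (fun a ha _ b hb x hx => ?_)
    (fun a _ _ => hFT _ (odd_of_coprime_two (coreIn_coprime _))) (fun a ha ha1 b hb hb1 => ?_)
  · exact (odd_of_coprime_two (coreIn_coprime _)).not_two_dvd_nat
  · exact (mem_normalizer_theta (Signalizer.elemAb_comm hF hb ha) x).1 hx
  · exact coreIn_inf_le (Signalizer.elemAb_comm hF ha hb) (hord a ha ha1) (hcon b (hord b hb hb1))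

theorem W_eq_of_le {F D : Subgroup G} (hF : Cfsg.IsElementaryAbelian 2 F)
    (hF8 : 2 ^ 3 ≤ Nat.card F) (hDF : D ≤ F) (hD : 2 ^ 2 ≤ Nat.card D) : W F = W D := by
  obtain ⟨h1, h2⟩ := complete hSFT hFT hcon hF hF8
  refine le_antisymm ?_ (iSup_le fun b =>
    le_iSup (fun b : {a : G // a ∈ F ∧ a ≠ 1} => CharTwo.theta (b : G)) ⟨b, hDF b.2.1, b.2.2⟩)
  refine Signalizer.le_of_forall_centralizer (Signalizer.elemAb_mono hF hDF) hD
    (fun d hd => W_le_of_mem_normalizer (le_normalizer (hDF hd))) h1 fun b hb hb1 => ?_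
  rw [h2 b (hDF hb) hb1]
  exact le_iSup (fun b : {a : G // a ∈ D ∧ a ≠ 1} => CharTwo.theta (b : G)) ⟨b, hb, hb1⟩

/-- Every involution normalizing `B` lies in the scope of `W B`. -/
theorem inf_centralizer_eq {B : Subgroup G} (hB : Cfsg.IsElementaryAbelian 2 B)
    (hB8 : 2 ^ 3 ≤ Nat.card B) {v : G} (hv : orderOf v = 2)
    (hvB : v ∈ normalizer (B : Set G)) : W B ⊓ centralizer {v} = CharTwo.theta v := by
  have hv1 : v ≠ 1 := Invol.inv_ne_one hv
  by_cases hmem : v ∈ B
  · exact (complete hSFT hFT hcon hB hB8).2 v hmem hv1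
  have hc : ∀ x ∈ B, ∀ y ∈ B, Commute x y := fun x hx y hy => Signalizer.elemAb_comm hB hx hy
  have hsq : ∀ x ∈ B, x * x = 1 := fun x hx => by rw [← pow_two]; exact hB.2 x hx
  have hvv : v * v = 1 := Invol.inv_mul_self hv
  let φ : B →* B :=
    { toFun := fun x => ⟨x * (v * x * v⁻¹), mul_mem x.2 ((hvB _).1 x.2)⟩
      map_one' := Subtype.ext (by simp)
      map_mul' := fun x y => Subtype.ext (by
        show (x : G) * y * (v * (x * y) * v⁻¹) = x * (v * x * v⁻¹) * (y * (v * y * v⁻¹))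
        rw [(hc _ y.2 _ ((hvB _).1 x.2)).symm.mul_mul_mul_comm, conj_mul]) }
  set D := B ⊓ centralizer ({v} : Set G) with hDdef
  have hker : φ.ker.map B.subtype ≤ D := by
    rintro _ ⟨x, hx, rfl⟩
    refine ⟨x.2, mem_centralizer_singleton_iff.2 ?_⟩
    have h1 : (x : G) * (v * x * v⁻¹) = 1 := congrArg Subtype.val (MonoidHom.mem_ker.1 hx)
    have h2 : v * x * v⁻¹ = (x : G) := by
      rw [eq_inv_of_mul_eq_one_right h1]
      exact inv_eq_of_mul_eq_one_right (hsq _ x.2)
    exact (mul_inv_eq_iff_eq_mul.1 h2).symm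
  have hran : φ.range.map B.subtype ≤ D := by
    rintro _ ⟨_, ⟨x, rfl⟩, rfl⟩
    refine ⟨(φ x).2, mem_centralizer_singleton_iff.2 ?_⟩
    have h2 : v * ((x : G) * (v * x * v⁻¹)) * v⁻¹ = x * (v * x * v⁻¹) := by
      rw [← conj_mul]
      conv_lhs => arg 2; rw [show v * (v * (x : G) * v⁻¹) * v⁻¹ = x by
        calc v * (v * (x : G) * v⁻¹) * v⁻¹ = (v * v) * x * (v * v)⁻¹ := by group
          _ = x := by rw [hvv]; group]
      exact (hc _ ((hvB _).1 x.2) _ x.2).eq
    exact (mul_inv_eq_iff_eq_mul.1 h2).symm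
  have hD4 : 2 ^ 2 ≤ Nat.card D := by
    have hk := Subgroup.card_le_of_le hker
    have hr := Subgroup.card_le_of_le hran
    rw [card_map_of_injective B.subtype_injective] at hk hr
    have hmul : Nat.card φ.ker * Nat.card φ.range = Nat.card B := by
      rw [← index_ker, mul_comm, index_mul_card]
    have h8 : 8 ≤ Nat.card D * Nat.card D := by
      calc 8 ≤ Nat.card B := by simpa using hB8
        _ = _ := hmul.symm
        _ ≤ _ := Nat.mul_le_mul hk hr
    obtain ⟨k, hk'⟩ := IsPGroup.iff_card.1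
      (Signalizer.elemAb_isPGroup (Signalizer.elemAb_mono hB (inf_le_left : D ≤ B)))
    rw [hk'] at h8 ⊢
    rcases k with _ | _ | k
    · norm_num at h8
    · norm_num at h8
    · exact Nat.pow_le_pow_right (by norm_num) (by omega)
  have hzv : Cfsg.IsElementaryAbelian 2 (zpowers v) := by
    refine ⟨inferInstance, fun x hx => ?_⟩
    obtain ⟨j, rfl⟩ := hx
    show (v ^ j) ^ 2 = 1
    rw [← zpow_natCast, ← zpow_mul, mul_comm, zpow_mul, zpow_natCast, pow_two, hvv, one_zpow]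
  have hDel := Signalizer.elemAb_mono hB (inf_le_left : D ≤ B)
  have hF : Cfsg.IsElementaryAbelian 2 (D ⊔ zpowers v) :=
    Components.elemAb_sup hDel hzv fun a ha b hb => by
      obtain ⟨j, rfl⟩ := hb
      exact (Commute.zpow_right (mem_centralizer_singleton_iff.1 ha.2) j).eq
  have hlt : D < D ⊔ zpowers v := lt_of_le_of_ne le_sup_left fun h =>
    hmem (show v ∈ D from h ▸ mem_sup_right (mem_zpowers v)).1
  have hF8 : 2 ^ 3 ≤ Nat.card ↥(D ⊔ zpowers v) := by
    refine le_trans ?_ (Signalizer.mul_prime_le_card_of_lt (Signalizer.elemAb_isPGroup hF) hlt)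
    calc 2 ^ 3 = 2 ^ 2 * 2 := by norm_num
      _ ≤ _ := Nat.mul_le_mul_right 2 hD4
  have hW : W B = W (D ⊔ zpowers v) := by
    rw [W_eq_of_le hSFT hFT hcon hB hB8 inf_le_left hD4,
      W_eq_of_le hSFT hFT hcon hF hF8 le_sup_left hD4]
  rw [hW]
  exact (complete hSFT hFT hcon hF hF8).2 v (mem_sup_right (mem_zpowers v)) hv1

/-- The cores generate `W B` over every subgroup of 2-rank at least two normalizing `B`. -/
theorem iSup_core_eq {B : Subgroup G} (hB : Cfsg.IsElementaryAbelian 2 B)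
    (hB8 : 2 ^ 3 ≤ Nat.card B) {T : Subgroup G} (hTp : IsPGroup 2 T)
    (hTB : T ≤ normalizer (B : Set G)) (hT : ¬ Cfsg.PRankLE 2 1 ↥T) :
    W B = ⨆ b : {b : G // b ∈ T ∧ b ≠ 1}, Cfsg.centralizerPPrimeCore 2 (b : G) := by
  apply le_antisymm
  · obtain ⟨V, hVT, hV, hV4⟩ := Components.exists_elemAb_of_not_rankLE hT
    refine Signalizer.le_of_forall_centralizer hV hV4
      (fun d hd => W_le_of_mem_normalizer (hTB (hVT hd))) (complete hSFT hFT hcon hB hB8).1
      fun b hb hb1 => ?_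
    rw [inf_centralizer_eq hSFT hFT hcon hB hB8 (Signalizer.elemAb_orderOf hV hb hb1)
      (hTB (hVT hb))]
    exact le_iSup (fun b : {b : G // b ∈ T ∧ b ≠ 1} => Cfsg.centralizerPPrimeCore 2 (b : G))
      ⟨b, hVT hb, hb1⟩
  · refine iSup_le ?_
    rintro ⟨b, hbT, hb1⟩
    obtain ⟨k, hk⟩ := IsPGroup.iff_orderOf.1 hTp ⟨b, hbT⟩
    rw [← orderOf_submonoid] at hk
    rcases k with _ | k
    · exact absurd (orderOf_eq_one_iff.1 hk) hb1
    set z := b ^ 2 ^ k with hz
    have hzord : orderOf z = 2 := by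
      rw [hz, orderOf_pow' b (by positivity), hk, Nat.gcd_eq_right (pow_dvd_pow 2 k.le_succ),
        pow_succ, Nat.mul_div_cancel_left 2 (by positivity)]
    set X := centralizer ({z} : Set G) with hX
    have hbX : b ∈ X := mem_centralizer_singleton_iff.2 (Commute.pow_right (Commute.refl b) _).eq
    have hle : centralizer ({b} : Set G) ≤ X := fun c hc =>
      mem_centralizer_singleton_iff.2 (Commute.pow_right (mem_centralizer_singleton_iff.1 hc) _).eq
    let b' : X := ⟨b, hbX⟩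
    set Q := coreIn 2 (centralizer ({b} : Set G)) with hQ
    have h := le_pPrimeCore_of_centralizes (hcon z hzord) (x := b')
      (IsPGroup.of_card (n := k + 1) (by rw [Nat.card_zpowers, ← orderOf_submonoid]; exact hk))
      (W := Q.subgroupOf X)
      ((coreIn_coprime _).coprime_dvd_left
        (Subgroup.card_comap_dvd_of_injective _ X.subtype X.subtype_injective))
      (by rw [centralizer_singleton_subgroupOf_eq]
          exact fun w hw => coreIn_le (p := 2) (centralizer ({b} : Set G)) hw)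
      (by
        rw [centralizer_singleton_subgroupOf_eq]
        intro c hc w
        exact le_normalizer_coreIn (p := 2) (centralizer ({b} : Set G)) hc (w : G))
    have hQz : Q ≤ CharTwo.theta z := fun x hx =>
      ⟨⟨x, hle (coreIn_le _ hx)⟩, h hx, rfl⟩
    refine hQz.trans ((inf_centralizer_eq hSFT hFT hcon hB hB8 hzord
      (pow_mem (hTB hbT) _)).ge.trans inf_le_left)

theorem exists_core_subgroup (S : Sylow 2 G) {B : Subgroup G} (hSB : (S : Subgroup G) ≤ normalizer (B : Set G))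
    (hBc : ∀ x ∈ B, ∀ y ∈ B, Commute x y) (hB2 : ∀ x ∈ B, x * x = 1) (hB8 : 8 ≤ Nat.card B)
    (S' : Sylow 2 G) :
    ∃ W : Subgroup G, Odd (Nat.card ↥W) ∧
      ∀ T : Subgroup G, T ≤ (S' : Subgroup G) → ¬ Cfsg.PRankLE 2 1 ↥T →
        W = (⨆ b : {b : G // b ∈ T ∧ b ≠ 1}, Cfsg.centralizerPPrimeCore 2 (b : G)) ∧
        Subgroup.normalizer (T : Set G) ≤ Subgroup.normalizer (W : Set G) := by
  obtain ⟨g, rfl⟩ := MulAction.exists_smul_eq G S S'
  set B' := B.map (MulAut.conj g).toMonoidHom with hB'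
  have hel : Cfsg.IsElementaryAbelian 2 B' := by
    refine ⟨⟨⟨?_⟩⟩, ?_⟩
    · rintro ⟨_, x, hx, rfl⟩ ⟨_, y, hy, rfl⟩
      refine Subtype.ext ?_
      show (MulAut.conj g).toMonoidHom x * (MulAut.conj g).toMonoidHom y = _
      rw [← map_mul, (hBc x hx y hy).eq, map_mul]
      rfl
    · rintro _ ⟨x, hx, rfl⟩
      rw [← map_pow, pow_two, hB2 x hx, map_one]
  have h8 : 2 ^ 3 ≤ Nat.card B' := by
    rw [hB', card_map_of_injective (MulAut.conj g).injective]
    simpa using hB8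
  have hn : ((g • S : Sylow 2 G) : Subgroup G) ≤ normalizer (B' : Set G) :=
    (Subgroup.map_mono hSB).trans (Subgroup.le_normalizer_map _)
  refine ⟨W B', Nat.odd_iff.2 (Nat.two_dvd_ne_zero.1 (complete hSFT hFT hcon hel h8).1),
    fun T hT hrk => ?_⟩
  have heq := iSup_core_eq hSFT hFT hcon hel h8 ((g • S).isPGroup'.to_le hT) (hT.trans hn) hrk
  refine ⟨heq, fun c hc => ?_⟩
  rw [heq]
  exact W_le_of_mem_normalizer hc

end Cfsg.Agent.Signalizer.ConstrainedCores
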